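import Cfsg.Agent.H307.FourOdd.Defs
import Cfsg.Agent.H714.K4.Red

/-!
# S4947: bridge between the definitions of TEAM FOUR (helper307) and TEAM K4 (helper714) (helper16)
-/

set_option autoImplicit false

namespace Cfsg.Agent.H16.FourOdd

open Cfsg Subgroup Cfsg.Agent.H307.FourOdd

universe u

theorem K0_eq (G : Type u) [Group G] : K0 G = H714.K4.k0 G := rfl

theorem syl4_iff (G : Type u) [Group G] : Syl4 G ↔ ∀ P : Sylow 2 G, (commutator ↥P).index = 4 := Iff.rfl

theorem rowA_iff (S : Type u) [Group S] : RowA S ↔ H714.K4.RowA S := Or.comm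

/-- **The reduction of S4947** to the rows (A) and the case of a subgroup of index two. -/
theorem main (hidx : H714.K4.IdxTwo.{u})
    (hA : ∀ (S : Type u) [Group S] [Finite S] [IsSimpleGroup S], ¬ IsMulCommutative S → RowA S)
    {G : Type u} [Group G] [Finite G] (h : K0 G = 4) : Syl4 G :=
  fun P => H714.K4.reduction hidx (fun S _ _ _ hS => (rowA_iff S).1 (hA S hS)) G h P

end Cfsg.Agent.H16.FourOdd
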